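import Cfsg.Agent.R2.PX.C.StdR0
import Cfsg.Agent.R2.PX.C.StdR1
import Cfsg.Agent.R2.PX.C.StdR2
import Cfsg.Agent.R2.PX.C.StdR3
import Cfsg.Agent.R2.PX.C.StdR4
import Cfsg.Agent.R2.PX.C.StdR5
import Mathlib.GroupTheory.Perm.Sign

/-!
# Pattern X, Part C: the even permutations act on the standard configuration (helper3)
-/

set_option autoImplicit false
set_option maxRecDepth 100000

namespace Cfsg.Agent.R2.PX.C

open Cfsg Cfsg.Lie Matrix
open Cfsg.Agent.R2.T1 Cfsg.Agent.R2.PX
open Cfsg.Agent.H943.E7V.Block (D1 rho)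
open Equiv

universe u
variable (F : Type u) [Field F] [CharP F 5]

/-- the permutations realised on the standard configuration -/
def RP : Subgroup (Perm (Fin 8)) where
  carrier := {π | ∃ g : Gh F, ∀ i, V F g (uv F i) = uv F (π i)}
  one_mem' := ⟨1, fun i => by rw [map_one]; rfl⟩
  mul_mem' := by
    rintro a b ⟨g, hg⟩ ⟨h, hh⟩
    exact ⟨g * h, fun i => by rw [map_mul, Module.End.mul_apply, hh, hg]; rfl⟩
  inv_mem' := by
    rintro a ⟨g, hg⟩
    refine ⟨g⁻¹, fun i => ?_⟩
    have h1 := hg (a⁻¹ i)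
    have h2 : a (a⁻¹ i) = i := a.apply_symm_apply i
    rw [h2] at h1
    rw [← h1, ← Module.End.mul_apply, ← map_mul, inv_mul_cancel, map_one]
    rfl

/-- the adjacent transpositions -/
def sw (i : Fin 7) : Perm (Fin 8) := swap i.castSucc i.succ

theorem sw_succ (i : Fin 6) : sw i.castSucc * sw i.succ ∈ RP F := by
  fin_cases i
  · exact ⟨gR0 F, gR0_act⟩
  · exact ⟨gR1 F, gR1_act⟩
  · exact ⟨gR2 F, gR2_act⟩
  · exact ⟨gR3 F, gR3_act⟩
  · exact ⟨gR4 F, gR4_act⟩
  · exact ⟨gR5 F, gR5_act⟩

theorem sw_sq (i : Fin 7) : sw i * sw i = 1 := swap_mul_self _ _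

theorem sw_zero : ∀ i : Fin 7, sw 0 * sw i ∈ RP F := by
  intro i
  induction i using Fin.induction with
  | zero => rw [sw_sq]; exact one_mem _
  | succ i ih =>
    have h1 := mul_mem ih (sw_succ F i)
    have h2 : sw 0 * sw i.castSucc * (sw i.castSucc * sw i.succ) = sw 0 * sw i.succ := by
      rw [mul_assoc, ← mul_assoc (sw i.castSucc), sw_sq, one_mul]
    rwa [h2] at h1

theorem sign_sw (i : Fin 7) : Perm.sign (sw i) = -1 := by
  have h : i.castSucc ≠ i.succ := by
    intro h
    have := congrArg Fin.val h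
    simp at this
  exact Perm.sign_swap h

theorem all_perm (π : Perm (Fin 8)) : (Perm.sign π = 1 → π ∈ RP F) ∧ (Perm.sign π = -1 → sw 0 * π ∈ RP F) := by
  have hπ : π ∈ Submonoid.closure (Set.range fun i : Fin 7 => sw i) := by
    have h := Perm.mclosure_swap_castSucc_succ 7
    show π ∈ Submonoid.closure (Set.range fun i : Fin 7 => swap i.castSucc i.succ)
    rw [h]; trivial
  induction hπ using Submonoid.closure_induction_left with
  | one =>
    refine ⟨fun _ => one_mem _, fun h => ?_⟩
    rw [Perm.sign_one] at h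
    exact absurd h (by decide)
  | mul_left x hx y hy ih =>
    obtain ⟨i, rfl⟩ := hx
    change (Perm.sign (sw i * y) = 1 → sw i * y ∈ RP F) ∧ (Perm.sign (sw i * y) = -1 → sw 0 * (sw i * y) ∈ RP F)
    rw [Perm.sign_mul, sign_sw]
    constructor
    · intro h
      have h1 : Perm.sign y = -1 := by
        rcases Int.units_eq_one_or (Perm.sign y) with h2 | h2
        · rw [h2] at h; exact absurd h (by decide)
        · exact h2
      have h2 := mul_mem (inv_mem (sw_zero F i)) (ih.2 h1)
      have h3 : (sw 0 * sw i)⁻¹ * (sw 0 * y) = sw i * y := by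
        have h4 : (sw i)⁻¹ = sw i := inv_eq_of_mul_eq_one_left (sw_sq i)
        rw [_root_.mul_inv_rev, mul_assoc, inv_mul_cancel_left, h4]
      rwa [h3] at h2
    · intro h
      have h1 : Perm.sign y = 1 := by
        rcases Int.units_eq_one_or (Perm.sign y) with h2 | h2
        · exact h2
        · rw [h2] at h; exact absurd h (by decide)
      have h2 := mul_mem (sw_zero F i) (ih.1 h1)
      rwa [mul_assoc] at h2

/-- **the even permutations act** -/
theorem uv_act (π : Perm (Fin 8)) (h : Perm.sign π = 1) : ∃ g : Gh F, ∀ i, V F g (uv F i) = uv F (π i) :=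
  (all_perm F π).1 h

end Cfsg.Agent.R2.PX.C
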