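import Cfsg.Agent.R2.PX.C.Std
import Cfsg.Agent.R2.PX.C.StdS
import Cfsg.Agent.R2.PX.Tr4
import Cfsg.Agent.R2.PX.W.App

/-!
# Pattern X, Part C: the conclusion (helper3)

* `std_cfg` : the standard configuration is a configuration;
* `no_cfg` : a maximal subgroup does not stabilise the span of a configuration.
-/

set_option autoImplicit false

namespace Cfsg.Agent.R2.PX.C

open Cfsg Cfsg.Lie Module Matrix
open Cfsg.Agent.R2.T1 Cfsg.Agent.R2.PX
open Cfsg.Agent.R2.PX.W (Cfg exists_isSim)
open Cfsg.Agent.H943.E7V.Block (D1 rho)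

universe u
variable {F : Type u} [Field F] [CharP F 5]

/-- **the standard configuration** -/
theorem std_cfg : Cfg F (uv F) where
  act := uv_act F
  sum := uv_sum
  pure := uv_pure
  ne := uv_ne

theorem three_ne : (3 : F) ≠ 0 := by
  have h5 : (5 : F) = 0 := five_zero
  intro h3
  apply one_ne_zero (α := F)
  linear_combination 2 * h3 - h5

/-- **Part C of pattern X** : a maximal subgroup does not stabilise the span of a configuration -/
theorem no_cfg {H : Subgroup ↥(chevE7.group F)} (hM : IsCoatom H) {v : Fin 8 → D1 → F} (hv : Cfg F v)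
    (hS : Stab (V F) H (Submodule.span F (Set.range v))) : False := by
  obtain ⟨Θ, b, hΘ, hv'⟩ := exists_isSim std_cfg hv
  have hW : (W7 F).map (Θ : (D1 → F) →ₗ[F] (D1 → F)) = Submodule.span F (Set.range v) := by
    rw [W7, Submodule.map_span, ← Set.range_comp]
    congr 2
    funext i
    exact hv' i
  have hWW := map_WW hΘ (W7 F)
  rw [hW] at hWW
  have hSt := stab_WW hS
  have hiso : ∀ i j, sf F (v i) (v j) = 0 := fun i j => by
    rw [← hv', ← hv', hΘ.form, uv_iso, mul_zero]
  obtain ⟨g', hg'⟩ := Tr.sim_norm (fun g x y => DD_equi g x y) two_ne three_ne hΘ (g0 F)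
  have h0 : WW F (Submodule.span F (Set.range v)) ≠ ⊥ := by
    intro h
    have h1 : v 0 ∈ WW F (Submodule.span F (Set.range v)) := Submodule.mem_sup_left (Submodule.subset_span ⟨0, rfl⟩)
    rw [h, Submodule.mem_bot] at h1
    apply hv.ne
    rw [h1, map_zero]
    rfl
  have h1 : WW F (Submodule.span F (Set.range v)) ≠ ⊤ := by
    intro h
    have h2 : WW F (Submodule.span F (Set.range v)) ≤ LinearMap.ker (sf F (v 0)) := by
      refine sup_le ?_ ?_
      · refine Submodule.span_le.2 ?_
        rintro _ ⟨i, rfl⟩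
        exact hiso 0 i
      · rintro x ⟨-, hx⟩
        exact hx _ (Submodule.subset_span ⟨0, rfl⟩)
    apply hv.ne
    have h3 : DD F (v 1) (v 2) *ᵥ v 3 ∈ WW F (Submodule.span F (Set.range v)) := by rw [h]; trivial
    exact h2 h3
  have hstab : ∀ w ∈ WW F (Submodule.span F (Set.range v)), V F g' w ∈ WW F (Submodule.span F (Set.range v)) := by
    intro w hw
    rw [← hWW] at hw ⊢
    obtain ⟨x, hx, rfl⟩ := hw
    exact ⟨V F (g0 F) x, g0_WW x hx, (hg' x).symm⟩
  have hH := blue hM hSt h0 h1 hstab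
  obtain ⟨x, hx, hx'⟩ := g0_W7 (F := F)
  apply hx'
  have h2 : V F g' (Θ x) ∈ Submodule.span F (Set.range v) := by
    refine hS g' hH _ ?_
    rw [← hW]
    exact ⟨x, hx, rfl⟩
  rw [hg', ← hW] at h2
  obtain ⟨y, hy, hy'⟩ := h2
  have h3 : y = V F (g0 F) x := Θ.injective hy'
  rw [← h3]
  exact hy

end Cfsg.Agent.R2.PX.C
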