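import Cfsg.Agent.R2.PX.C.Up

/-!
# Pattern X, Part C: spans of packed vectors (helper3)

* `SP F L` : the span of the packed vectors of the list `L`; `mem_SP` : membership by a check.
-/

set_option autoImplicit false
set_option maxRecDepth 100000

namespace Cfsg.Agent.R2.PX.C

open Cfsg Cfsg.Lie Matrix
open Cfsg.Agent.R2.T1 Cfsg.Agent.R2.PX
open Cfsg.Agent.ChevalleyStructure.Elts Cfsg.Agent.ChevalleyStructure.RootVec
  Cfsg.Agent.ChevalleyStructure.RootVecTab
open Cfsg.Agent.H943.E7V.Block (D1 rho)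

universe u

/-- the combination at the weight `s` -/
def dotp : List ℕ → List ℕ → ℕ → ℕ
  | c :: cs, R :: Rs, s => Nat.add (Nat.mul c (pb R s)) (dotp cs Rs s)
  | _, _, _ => 0

/-- the check of a linear combination -/
def chkL (cs L : List ℕ) (E : ℕ) : Bool := W56.all fun s => Nat.beq (Nat.mod (dotp cs L s) 5) (pb E s)

section
variable (F : Type u) [Field F]

/-- the span of packed vectors -/
def SP (L : List ℕ) : Submodule F (D1 → F) := Submodule.span F {x | ∃ n ∈ L, x = lv F (pl n)}

variable {F}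

theorem SP_of_mem {L : List ℕ} {n : ℕ} (h : n ∈ L) : lv F (pl n) ∈ SP F L := Submodule.subset_span ⟨n, h, rfl⟩

theorem SP_le {L : List ℕ} {W : Submodule F (D1 → F)} (h : ∀ n ∈ L, lv F (pl n) ∈ W) : SP F L ≤ W := by
  refine Submodule.span_le.2 ?_
  rintro x ⟨n, hn, rfl⟩
  exact h n hn

theorem SP_mono {L L' : List ℕ} (h : ∀ n ∈ L, n ∈ L') : SP F L ≤ SP F L' := SP_le fun _ hn => SP_of_mem (h _ hn)

/-- the combination -/
def lvd (F : Type u) [Field F] : List ℕ → List ℕ → (D1 → F)
  | c :: cs, R :: Rs => (c : F) • lv F (pl R) + lvd F cs Rs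
  | _, _ => 0

theorem lvd_mem : ∀ (L cs : List ℕ), lvd F cs L ∈ SP F L := by
  intro L
  induction L with
  | nil =>
    intro cs
    cases cs <;> exact Submodule.zero_mem _
  | cons R L ih =>
    intro cs
    cases cs with
    | nil => exact Submodule.zero_mem _
    | cons c cs =>
      exact Submodule.add_mem _ (Submodule.smul_mem _ _ (SP_of_mem List.mem_cons_self))
        (SP_mono (fun _ h => List.mem_cons_of_mem _ h) (ih cs))

theorem lvd_apply : ∀ (L cs : List ℕ) (a : D1), lvd F cs L a = ((dotp cs L (nn a) : ℕ) : F) := by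
  intro L
  induction L with
  | nil =>
    intro cs a
    cases cs <;> simp [lvd, dotp]
  | cons R L ih =>
    intro cs a
    cases cs with
    | nil => simp [lvd, dotp]
    | cons c cs =>
      show (c : F) * lv F (pl R) a + lvd F cs L a = ((c * pa R (nn a) + dotp cs L (nn a) : ℕ) : F)
      rw [ih, lv_pl]
      push_cast
      rfl

theorem lvd_eq [CharP F 5] {cs L : List ℕ} {E : ℕ} (h : chkL cs L E = true) : lv F (pl E) = lvd F cs L := by
  funext a
  have h1 := Nat.eq_of_beq_eq_true (List.all_eq_true.1 h (nn a) (nn_mem a))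
  rw [lvd_apply, lv_pl, ← pb_eq, ← h1]
  exact castmod _

/-- membership in a span -/
theorem mem_SP [CharP F 5] {cs L : List ℕ} {E : ℕ} (h : chkL cs L E = true) : lv F (pl E) ∈ SP F L := by
  rw [lvd_eq h]; exact lvd_mem _ _

end

end Cfsg.Agent.R2.PX.C
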