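import Cfsg.Agent.R2.PX.DdE
import Cfsg.Agent.R2.PX.DdI

/-!
# Pattern X, Part C: the canonical subspace (helper3)

* `TT F W` : the span of the triple products of `W`; `PP F W` : the orthogonal; `WW F W = W ⊔ (TT F W ⊓ PP F W)`;
* `map_WW` : similitudes respect `WW`.
-/

set_option autoImplicit false

namespace Cfsg.Agent.R2.PX.C

open Cfsg Cfsg.Lie Module Matrix
open Cfsg.Agent.R2.T1 Cfsg.Agent.R2.PX
open Cfsg.Agent.H943.E7V.Block (D1 rho)

universe u
variable (F : Type u) [Field F]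

/-- triple products -/
def TT (W : Submodule F (D1 → F)) : Submodule F (D1 → F) :=
  Submodule.span F {w | ∃ x ∈ W, ∃ y ∈ W, ∃ z ∈ W, w = DD F x y *ᵥ z}

/-- the orthogonal -/
def PP (W : Submodule F (D1 → F)) : Submodule F (D1 → F) where
  carrier := {x | ∀ y ∈ W, sf F y x = 0}
  zero_mem' := fun y _ => map_zero _
  add_mem' := fun {a b} ha hb y hy => by rw [map_add, ha y hy, hb y hy, add_zero]
  smul_mem' := fun c a ha y hy => by rw [map_smul, ha y hy, smul_zero]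

/-- the canonical subspace -/
def WW (W : Submodule F (D1 → F)) : Submodule F (D1 → F) := W ⊔ (TT F W ⊓ PP F W)

variable {F}

theorem mem_PP {W : Submodule F (D1 → F)} {x : D1 → F} : x ∈ PP F W ↔ ∀ y ∈ W, sf F y x = 0 := Iff.rfl

section sim
variable {Θ : (D1 → F) ≃ₗ[F] (D1 → F)} {b : F}

theorem sim_symm (h : IsSim F Θ b) : IsSim F Θ.symm b⁻¹ where
  ne := inv_ne_zero h.ne
  form x y := by
    have h1 := h.form (Θ.symm x) (Θ.symm y)
    rw [LinearEquiv.apply_symm_apply, LinearEquiv.apply_symm_apply] at h1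
    rw [h1, inv_mul_cancel_left₀ h.ne]
  dd x y z := by
    have h1 := h.dd (Θ.symm x) (Θ.symm y) (Θ.symm z)
    rw [LinearEquiv.apply_symm_apply, LinearEquiv.apply_symm_apply, LinearEquiv.apply_symm_apply] at h1
    rw [h1, map_smul, LinearEquiv.symm_apply_apply, smul_smul, inv_mul_cancel₀ h.ne, one_smul]

theorem map_TT_le (h : IsSim F Θ b) (W : Submodule F (D1 → F)) :
    (TT F W).map (Θ : (D1 → F) →ₗ[F] (D1 → F)) ≤ TT F (W.map (Θ : (D1 → F) →ₗ[F] (D1 → F))) := by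
  rw [TT, Submodule.map_span, Submodule.span_le]
  rintro _ ⟨w, ⟨x, hx, y, hy, z, hz, rfl⟩, rfl⟩
  have h1 := h.dd x y z
  have h2 : Θ (DD F x y *ᵥ z) = b⁻¹ • (DD F (Θ x) (Θ y) *ᵥ Θ z) := by
    rw [h1, smul_smul, inv_mul_cancel₀ h.ne, one_smul]
  show Θ (DD F x y *ᵥ z) ∈ TT F (W.map (Θ : (D1 → F) →ₗ[F] (D1 → F)))
  rw [h2]
  exact Submodule.smul_mem _ _ (Submodule.subset_span ⟨Θ x, ⟨x, hx, rfl⟩, Θ y, ⟨y, hy, rfl⟩, Θ z, ⟨z, hz, rfl⟩, rfl⟩)

theorem map_PP_le (h : IsSim F Θ b) (W : Submodule F (D1 → F)) :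
    (PP F W).map (Θ : (D1 → F) →ₗ[F] (D1 → F)) ≤ PP F (W.map (Θ : (D1 → F) →ₗ[F] (D1 → F))) := by
  rintro _ ⟨x, hx, rfl⟩ _ ⟨y, hy, rfl⟩
  show sf F (Θ y) (Θ x) = 0
  rw [h.form, hx y hy, mul_zero]

theorem map_WW_le (h : IsSim F Θ b) (W : Submodule F (D1 → F)) :
    (WW F W).map (Θ : (D1 → F) →ₗ[F] (D1 → F)) ≤ WW F (W.map (Θ : (D1 → F) →ₗ[F] (D1 → F))) := by
  rw [WW, Submodule.map_sup]
  refine sup_le le_sup_left (le_trans ?_ le_sup_right)
  refine le_inf (le_trans (Submodule.map_mono inf_le_left) (map_TT_le h W)) (le_trans (Submodule.map_mono inf_le_right) (map_PP_le h W))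

theorem map_WW (h : IsSim F Θ b) (W : Submodule F (D1 → F)) :
    (WW F W).map (Θ : (D1 → F) →ₗ[F] (D1 → F)) = WW F (W.map (Θ : (D1 → F) →ₗ[F] (D1 → F))) := by
  refine le_antisymm (map_WW_le h W) fun x hx => ?_
  have h1 := map_WW_le (sim_symm h) (W.map (Θ : (D1 → F) →ₗ[F] (D1 → F)))
  have h2 : (W.map (Θ : (D1 → F) →ₗ[F] (D1 → F))).map (Θ.symm : (D1 → F) →ₗ[F] (D1 → F)) = W := by
    ext w
    constructor
    · rintro ⟨_, ⟨w', hw', rfl⟩, rfl⟩
      have : Θ.symm (Θ w') ∈ W := by rw [LinearEquiv.symm_apply_apply]; exact hw'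
      exact this
    · intro hw
      exact ⟨Θ w, ⟨w, hw, rfl⟩, LinearEquiv.symm_apply_apply _ _⟩
  rw [h2] at h1
  exact ⟨Θ.symm x, h1 ⟨x, hx, rfl⟩, LinearEquiv.apply_symm_apply _ _⟩

end sim

/-- the linear equivalence of an element of the group -/
noncomputable def Ve (g : Gh F) : (D1 → F) ≃ₗ[F] (D1 → F) :=
  LinearEquiv.ofLinear (V F g) (V F g⁻¹)
    (by rw [← Module.End.mul_eq_comp, ← map_mul, mul_inv_cancel, map_one]; rfl)
    (by rw [← Module.End.mul_eq_comp, ← map_mul, inv_mul_cancel, map_one]; rfl)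

theorem Ve_apply (g : Gh F) (x : D1 → F) : Ve g x = V F g x := rfl

theorem sim_Ve [CharP F 5] (g : Gh F) : IsSim F (Ve g) 1 where
  ne := one_ne_zero
  form x y := by rw [Ve_apply, Ve_apply, sf_V, one_mul]
  dd x y z := by rw [Ve_apply, Ve_apply, Ve_apply, Ve_apply, DD_V, one_smul]

/-- an element which stabilises `W` stabilises `WW F W` -/
theorem V_WW [CharP F 5] {g : Gh F} {W : Submodule F (D1 → F)} (h : ∀ w ∈ W, V F g w ∈ W) :
    ∀ w ∈ WW F W, V F g w ∈ WW F W := by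
  have h1 : W.map (Ve g : (D1 → F) →ₗ[F] (D1 → F)) = W := by
    ext w
    constructor
    · rintro ⟨w, hw, rfl⟩
      exact h w hw
    · intro hw
      have h2 := (mem_St_of (ρ := V F) h)
      have h3 : V F g⁻¹ w ∈ W := by
        rw [← h2 (V F g⁻¹ w)]
        rw [← Module.End.mul_apply, ← map_mul, mul_inv_cancel, map_one]
        exact hw
      refine ⟨_, h3, ?_⟩
      show V F g (V F g⁻¹ w) = w
      rw [← Module.End.mul_apply, ← map_mul, mul_inv_cancel, map_one]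
      rfl
  have h2 := map_WW (sim_Ve g) W
  rw [h1] at h2
  intro w hw
  rw [← h2]
  exact ⟨w, hw, rfl⟩

theorem stab_WW [CharP F 5] {H : Subgroup ↥(chevE7.group F)} {W : Submodule F (D1 → F)} (h : Stab (V F) H W) :
    Stab (V F) H (WW F W) := fun g hg => V_WW (h g hg)

end Cfsg.Agent.R2.PX.C
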