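import Cfsg.Agent.R2.PX.C.StdC0
import Cfsg.Agent.R2.PX.C.StdC1
import Cfsg.Agent.R2.PX.C.StdG
import Cfsg.Agent.R2.PX.C.WW

/-!
# Pattern X, Part C: the standard configuration, the canonical subspace (helper3)
-/

set_option autoImplicit false
set_option maxRecDepth 100000

namespace Cfsg.Agent.R2.PX.C

open Cfsg Cfsg.Lie Matrix
open Cfsg.Agent.R2.T1 Cfsg.Agent.R2.PX
open Cfsg.Agent.H943.E7V.Block (D1 rho)

universe u
variable {F : Type u} [Field F]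

section
variable [CharP F 5]

variable (F)

/-- the seven-dimensional subspace -/
def W7 : Submodule F (D1 → F) := Submodule.span F (Set.range (uv F))

variable {F}

/-- the triple products of the standard configuration are symmetric -/
theorem T_swap (i j k : Fin 8) : DD F (uv F i) (uv F j) *ᵥ uv F k = DD F (uv F i) (uv F k) *ᵥ uv F j := by
  have h := ident (F := F) (uv F i) (uv F j) (uv F k)
  rw [uv_iso, uv_iso, uv_iso, mul_zero, zero_smul, zero_smul, zero_smul, add_zero, sub_zero] at h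
  exact sub_eq_zero.1 h

theorem T_self (i k : Fin 8) : DD F (uv F i) (uv F i) *ᵥ uv F k = 0 := by
  have h : DD F (uv F i) (uv F i) = 0 := uv_pure i
  rw [h, Matrix.zero_mulVec]

/-- reduction to the sorted triples -/
theorem T_cases (X : Submodule F (D1 → F))
    (h : ∀ i j k : Fin 8, i < j → j < k → DD F (uv F i) (uv F j) *ᵥ uv F k ∈ X) (i j k : Fin 8) :
    DD F (uv F i) (uv F j) *ᵥ uv F k ∈ X := by
  have hij : ∀ i j k : Fin 8, i < j → DD F (uv F i) (uv F j) *ᵥ uv F k ∈ X := by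
    intro i j k hij
    rcases lt_trichotomy j k with h1 | h1 | h1
    · exact h i j k hij h1
    · subst h1
      rw [DD_comm, T_swap, T_self]; exact Submodule.zero_mem _
    · rcases lt_trichotomy i k with h2 | h2 | h2
      · rw [T_swap]; exact h i k j h2 h1
      · subst h2
        rw [T_swap, T_self]; exact Submodule.zero_mem _
      · rw [T_swap, DD_comm]; exact h k i j h2 hij
  rcases lt_trichotomy i j with h1 | h1 | h1
  · exact hij i j k h1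
  · subst h1; rw [T_self]; exact Submodule.zero_mem _
  · rw [DD_comm]; exact hij j i k h1

/-- the sorted triples -/
def TL : List (Fin 8 × Fin 8 × Fin 8) := [(0, 1, 2), (0, 1, 3), (0, 1, 4), (0, 1, 5), (0, 1, 6), (0, 1, 7), (0, 2, 3), (0, 2, 4), (0, 2, 5), (0, 2, 6),
  (0, 2, 7), (0, 3, 4), (0, 3, 5), (0, 3, 6), (0, 3, 7), (0, 4, 5), (0, 4, 6), (0, 4, 7), (0, 5, 6), (0, 5, 7),
  (0, 6, 7), (1, 2, 3), (1, 2, 4), (1, 2, 5), (1, 2, 6), (1, 2, 7), (1, 3, 4), (1, 3, 5), (1, 3, 6), (1, 3, 7),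
  (1, 4, 5), (1, 4, 6), (1, 4, 7), (1, 5, 6), (1, 5, 7), (1, 6, 7), (2, 3, 4), (2, 3, 5), (2, 3, 6), (2, 3, 7),
  (2, 4, 5), (2, 4, 6), (2, 4, 7), (2, 5, 6), (2, 5, 7), (2, 6, 7), (3, 4, 5), (3, 4, 6), (3, 4, 7), (3, 5, 6),
  (3, 5, 7), (3, 6, 7), (4, 5, 6), (4, 5, 7), (4, 6, 7), (5, 6, 7)]

theorem mem_TL : ∀ i j k : Fin 8, i < j → j < k → (i, j, k) ∈ TL := by decide +kernel

theorem memT {A B C q t : ℕ} (h1 : chkQ A B q = true) (h2 : chkD q C t = true) {cs L : List ℕ} (h3 : chkL cs L t = true) :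
    DD F (lv F (pl A)) (lv F (pl B)) *ᵥ lv F (pl C) ∈ SP F L := by
  rw [DD_eval h1 h2]; exact mem_SP h3

/-- the triple products are in the span of `PL ++ T7` -/
theorem TL_mem : ∀ x ∈ TL, DD F (uv F x.1) (uv F x.2.1) *ᵥ uv F x.2.2 ∈ SP F (PL ++ T7) :=
  List.forall_mem_cons.2 ⟨memT Q01 T012 C012, 
  List.forall_mem_cons.2 ⟨memT Q01 T013 C013, 
  List.forall_mem_cons.2 ⟨memT Q01 T014 C014, 
  List.forall_mem_cons.2 ⟨memT Q01 T015 C015, 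
  List.forall_mem_cons.2 ⟨memT Q01 T016 C016, 
  List.forall_mem_cons.2 ⟨memT Q01 T017 C017, 
  List.forall_mem_cons.2 ⟨memT Q02 T023 C023, 
  List.forall_mem_cons.2 ⟨memT Q02 T024 C024, 
  List.forall_mem_cons.2 ⟨memT Q02 T025 C025, 
  List.forall_mem_cons.2 ⟨memT Q02 T026 C026, 
  List.forall_mem_cons.2 ⟨memT Q02 T027 C027, 
  List.forall_mem_cons.2 ⟨memT Q03 T034 C034, 
  List.forall_mem_cons.2 ⟨memT Q03 T035 C035, 
  List.forall_mem_cons.2 ⟨memT Q03 T036 C036, 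
  List.forall_mem_cons.2 ⟨memT Q03 T037 C037, 
  List.forall_mem_cons.2 ⟨memT Q04 T045 C045, 
  List.forall_mem_cons.2 ⟨memT Q04 T046 C046, 
  List.forall_mem_cons.2 ⟨memT Q04 T047 C047, 
  List.forall_mem_cons.2 ⟨memT Q05 T056 C056, 
  List.forall_mem_cons.2 ⟨memT Q05 T057 C057, 
  List.forall_mem_cons.2 ⟨memT Q06 T067 C067, 
  List.forall_mem_cons.2 ⟨memT Q12 T123 C123, 
  List.forall_mem_cons.2 ⟨memT Q12 T124 C124, 
  List.forall_mem_cons.2 ⟨memT Q12 T125 C125, 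
  List.forall_mem_cons.2 ⟨memT Q12 T126 C126, 
  List.forall_mem_cons.2 ⟨memT Q12 T127 C127, 
  List.forall_mem_cons.2 ⟨memT Q13 T134 C134, 
  List.forall_mem_cons.2 ⟨memT Q13 T135 C135, 
  List.forall_mem_cons.2 ⟨memT Q13 T136 C136, 
  List.forall_mem_cons.2 ⟨memT Q13 T137 C137, 
  List.forall_mem_cons.2 ⟨memT Q14 T145 C145, 
  List.forall_mem_cons.2 ⟨memT Q14 T146 C146, 
  List.forall_mem_cons.2 ⟨memT Q14 T147 C147, 
  List.forall_mem_cons.2 ⟨memT Q15 T156 C156, 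
  List.forall_mem_cons.2 ⟨memT Q15 T157 C157, 
  List.forall_mem_cons.2 ⟨memT Q16 T167 C167, 
  List.forall_mem_cons.2 ⟨memT Q23 T234 C234, 
  List.forall_mem_cons.2 ⟨memT Q23 T235 C235, 
  List.forall_mem_cons.2 ⟨memT Q23 T236 C236, 
  List.forall_mem_cons.2 ⟨memT Q23 T237 C237, 
  List.forall_mem_cons.2 ⟨memT Q24 T245 C245, 
  List.forall_mem_cons.2 ⟨memT Q24 T246 C246, 
  List.forall_mem_cons.2 ⟨memT Q24 T247 C247, 
  List.forall_mem_cons.2 ⟨memT Q25 T256 C256, 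
  List.forall_mem_cons.2 ⟨memT Q25 T257 C257, 
  List.forall_mem_cons.2 ⟨memT Q26 T267 C267, 
  List.forall_mem_cons.2 ⟨memT Q34 T345 C345, 
  List.forall_mem_cons.2 ⟨memT Q34 T346 C346, 
  List.forall_mem_cons.2 ⟨memT Q34 T347 C347, 
  List.forall_mem_cons.2 ⟨memT Q35 T356 C356, 
  List.forall_mem_cons.2 ⟨memT Q35 T357 C357, 
  List.forall_mem_cons.2 ⟨memT Q36 T367 C367, 
  List.forall_mem_cons.2 ⟨memT Q45 T456 C456, 
  List.forall_mem_cons.2 ⟨memT Q45 T457 C457, 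
  List.forall_mem_cons.2 ⟨memT Q46 T467 C467, 
  List.forall_mem_cons.2 ⟨memT Q56 T567 C567, 
  List.forall_mem_nil _⟩⟩⟩⟩⟩⟩⟩⟩⟩⟩⟩⟩⟩⟩⟩⟩⟩⟩⟩⟩⟩⟩⟩⟩⟩⟩⟩⟩⟩⟩⟩⟩⟩⟩⟩⟩⟩⟩⟩⟩⟩⟩⟩⟩⟩⟩⟩⟩⟩⟩⟩⟩⟩⟩⟩⟩

theorem T_mem (i j k : Fin 8) : DD F (uv F i) (uv F j) *ᵥ uv F k ∈ SP F (PL ++ T7) :=
  T_cases _ (fun i j k h1 h2 => TL_mem (i, j, k) (mem_TL i j k h1 h2)) i j k

theorem uv_mem (i : Fin 8) : uv F i ∈ W7 F := Submodule.subset_span ⟨i, rfl⟩

/-- trilinearity -/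
theorem TT_le (X : Submodule F (D1 → F)) (h : ∀ i j k : Fin 8, DD F (uv F i) (uv F j) *ᵥ uv F k ∈ X) :
    TT F (W7 F) ≤ X := by
  refine Submodule.span_le.2 ?_
  rintro _ ⟨x, hx, y, hy, z, hz, rfl⟩
  show DD F x y *ᵥ z ∈ X
  induction hx using Submodule.span_induction with
  | zero => rw [DD_zero_left, Matrix.zero_mulVec]; exact Submodule.zero_mem _
  | add a b _ _ ha hb => rw [DD_add_left, Matrix.add_mulVec]; exact Submodule.add_mem _ ha hb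
  | smul c a _ ha => rw [DD_smul_left, Matrix.smul_mulVec]; exact Submodule.smul_mem _ _ ha
  | mem a ha =>
    obtain ⟨i, rfl⟩ := ha
    induction hy using Submodule.span_induction with
    | zero => rw [DD_zero_right, Matrix.zero_mulVec]; exact Submodule.zero_mem _
    | add a b _ _ ha hb => rw [DD_add_right, Matrix.add_mulVec]; exact Submodule.add_mem _ ha hb
    | smul c a _ ha => rw [DD_smul_right, Matrix.smul_mulVec]; exact Submodule.smul_mem _ _ ha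
    | mem b hb =>
      obtain ⟨j, rfl⟩ := hb
      induction hz using Submodule.span_induction with
      | zero => rw [Matrix.mulVec_zero]; exact Submodule.zero_mem _
      | add a b _ _ ha hb => rw [Matrix.mulVec_add]; exact Submodule.add_mem _ ha hb
      | smul c a _ ha => rw [Matrix.mulVec_smul]; exact Submodule.smul_mem _ _ ha
      | mem c hc =>
        obtain ⟨k, rfl⟩ := hc
        exact h i j k

theorem T_TT (i j k : Fin 8) : DD F (uv F i) (uv F j) *ᵥ uv F k ∈ TT F (W7 F) :=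
  Submodule.subset_span ⟨_, uv_mem i, _, uv_mem j, _, uv_mem k, rfl⟩

theorem memTT {A B C q t : ℕ} (h1 : chkQ A B q = true) (h2 : chkD q C t = true) (i j k : Fin 8)
    (hA : UL.getD i 0 = A) (hB : UL.getD j 0 = B) (hC : UL.getD k 0 = C) : lv F (pl t) ∈ TT F (W7 F) := by
  have := T_TT (F := F) i j k
  rw [uv, uv, uv, hA, hB, hC, DD_eval h1 h2] at this
  exact this

theorem TA_mem : ∀ n ∈ TA, lv F (pl n) ∈ TT F (W7 F) :=
  List.forall_mem_cons.2 ⟨memTT Q01 T012 0 1 2 rfl rfl rfl, 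
  List.forall_mem_cons.2 ⟨memTT Q01 T013 0 1 3 rfl rfl rfl, 
  List.forall_mem_cons.2 ⟨memTT Q01 T014 0 1 4 rfl rfl rfl, 
  List.forall_mem_cons.2 ⟨memTT Q01 T015 0 1 5 rfl rfl rfl, 
  List.forall_mem_cons.2 ⟨memTT Q01 T016 0 1 6 rfl rfl rfl, 
  List.forall_mem_cons.2 ⟨memTT Q01 T017 0 1 7 rfl rfl rfl, 
  List.forall_mem_cons.2 ⟨memTT Q02 T023 0 2 3 rfl rfl rfl, 
  List.forall_mem_cons.2 ⟨memTT Q02 T024 0 2 4 rfl rfl rfl, 
  List.forall_mem_cons.2 ⟨memTT Q02 T025 0 2 5 rfl rfl rfl, 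
  List.forall_mem_cons.2 ⟨memTT Q02 T026 0 2 6 rfl rfl rfl, 
  List.forall_mem_cons.2 ⟨memTT Q02 T027 0 2 7 rfl rfl rfl, 
  List.forall_mem_cons.2 ⟨memTT Q03 T034 0 3 4 rfl rfl rfl, 
  List.forall_mem_cons.2 ⟨memTT Q03 T035 0 3 5 rfl rfl rfl, 
  List.forall_mem_cons.2 ⟨memTT Q03 T036 0 3 6 rfl rfl rfl, 
  List.forall_mem_cons.2 ⟨memTT Q03 T037 0 3 7 rfl rfl rfl, 
  List.forall_mem_cons.2 ⟨memTT Q04 T045 0 4 5 rfl rfl rfl, 
  List.forall_mem_cons.2 ⟨memTT Q04 T046 0 4 6 rfl rfl rfl, 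
  List.forall_mem_cons.2 ⟨memTT Q04 T047 0 4 7 rfl rfl rfl, 
  List.forall_mem_cons.2 ⟨memTT Q05 T056 0 5 6 rfl rfl rfl, 
  List.forall_mem_cons.2 ⟨memTT Q05 T057 0 5 7 rfl rfl rfl, 
  List.forall_mem_cons.2 ⟨memTT Q06 T067 0 6 7 rfl rfl rfl, 
  List.forall_mem_cons.2 ⟨memTT Q12 T123 1 2 3 rfl rfl rfl, 
  List.forall_mem_cons.2 ⟨memTT Q12 T124 1 2 4 rfl rfl rfl, 
  List.forall_mem_cons.2 ⟨memTT Q12 T125 1 2 5 rfl rfl rfl, 
  List.forall_mem_cons.2 ⟨memTT Q12 T126 1 2 6 rfl rfl rfl, 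
  List.forall_mem_cons.2 ⟨memTT Q12 T127 1 2 7 rfl rfl rfl, 
  List.forall_mem_cons.2 ⟨memTT Q13 T134 1 3 4 rfl rfl rfl, 
  List.forall_mem_cons.2 ⟨memTT Q13 T135 1 3 5 rfl rfl rfl, 
  List.forall_mem_cons.2 ⟨memTT Q13 T136 1 3 6 rfl rfl rfl, 
  List.forall_mem_cons.2 ⟨memTT Q13 T137 1 3 7 rfl rfl rfl, 
  List.forall_mem_cons.2 ⟨memTT Q14 T145 1 4 5 rfl rfl rfl, 
  List.forall_mem_cons.2 ⟨memTT Q14 T146 1 4 6 rfl rfl rfl, 
  List.forall_mem_cons.2 ⟨memTT Q14 T147 1 4 7 rfl rfl rfl, 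
  List.forall_mem_cons.2 ⟨memTT Q15 T156 1 5 6 rfl rfl rfl, 
  List.forall_mem_cons.2 ⟨memTT Q15 T157 1 5 7 rfl rfl rfl, 
  List.forall_mem_cons.2 ⟨memTT Q16 T167 1 6 7 rfl rfl rfl, 
  List.forall_mem_cons.2 ⟨memTT Q23 T234 2 3 4 rfl rfl rfl, 
  List.forall_mem_cons.2 ⟨memTT Q23 T235 2 3 5 rfl rfl rfl, 
  List.forall_mem_cons.2 ⟨memTT Q23 T236 2 3 6 rfl rfl rfl, 
  List.forall_mem_cons.2 ⟨memTT Q23 T237 2 3 7 rfl rfl rfl, 
  List.forall_mem_cons.2 ⟨memTT Q24 T245 2 4 5 rfl rfl rfl, 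
  List.forall_mem_cons.2 ⟨memTT Q24 T246 2 4 6 rfl rfl rfl, 
  List.forall_mem_cons.2 ⟨memTT Q24 T247 2 4 7 rfl rfl rfl, 
  List.forall_mem_cons.2 ⟨memTT Q25 T256 2 5 6 rfl rfl rfl, 
  List.forall_mem_cons.2 ⟨memTT Q25 T257 2 5 7 rfl rfl rfl, 
  List.forall_mem_cons.2 ⟨memTT Q26 T267 2 6 7 rfl rfl rfl, 
  List.forall_mem_cons.2 ⟨memTT Q34 T345 3 4 5 rfl rfl rfl, 
  List.forall_mem_cons.2 ⟨memTT Q34 T346 3 4 6 rfl rfl rfl, 
  List.forall_mem_cons.2 ⟨memTT Q34 T347 3 4 7 rfl rfl rfl, 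
  List.forall_mem_cons.2 ⟨memTT Q35 T356 3 5 6 rfl rfl rfl, 
  List.forall_mem_cons.2 ⟨memTT Q35 T357 3 5 7 rfl rfl rfl, 
  List.forall_mem_cons.2 ⟨memTT Q36 T367 3 6 7 rfl rfl rfl, 
  List.forall_mem_cons.2 ⟨memTT Q45 T456 4 5 6 rfl rfl rfl, 
  List.forall_mem_cons.2 ⟨memTT Q45 T457 4 5 7 rfl rfl rfl, 
  List.forall_mem_cons.2 ⟨memTT Q46 T467 4 6 7 rfl rfl rfl, 
  List.forall_mem_cons.2 ⟨memTT Q56 T567 5 6 7 rfl rfl rfl, 
  List.forall_mem_nil _⟩⟩⟩⟩⟩⟩⟩⟩⟩⟩⟩⟩⟩⟩⟩⟩⟩⟩⟩⟩⟩⟩⟩⟩⟩⟩⟩⟩⟩⟩⟩⟩⟩⟩⟩⟩⟩⟩⟩⟩⟩⟩⟩⟩⟩⟩⟩⟩⟩⟩⟩⟩⟩⟩⟩⟩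

theorem mem_TT_of {cs L : List ℕ} {E : ℕ} (h : chkL cs L E = true) (hL : (L.all fun n => TA.contains n) = true) :
    lv F (pl E) ∈ TT F (W7 F) := by
  refine SP_le (fun n hn => TA_mem n ?_) (mem_SP h)
  have := List.all_eq_true.1 hL n hn
  exact List.contains_iff_mem.1 this

theorem PL_TT : ∀ n ∈ PL, lv F (pl n) ∈ TT F (W7 F) :=
  List.forall_mem_cons.2 ⟨mem_TT_of P0 (by decide +kernel), 
  List.forall_mem_cons.2 ⟨mem_TT_of P1 (by decide +kernel), 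
  List.forall_mem_cons.2 ⟨mem_TT_of P2 (by decide +kernel), 
  List.forall_mem_cons.2 ⟨mem_TT_of P3 (by decide +kernel), 
  List.forall_mem_cons.2 ⟨mem_TT_of P4 (by decide +kernel), 
  List.forall_mem_cons.2 ⟨mem_TT_of P5 (by decide +kernel), 
  List.forall_mem_cons.2 ⟨mem_TT_of P6 (by decide +kernel), 
  List.forall_mem_cons.2 ⟨mem_TT_of P7 (by decide +kernel), 
  List.forall_mem_cons.2 ⟨mem_TT_of P8 (by decide +kernel), 
  List.forall_mem_cons.2 ⟨mem_TT_of P9 (by decide +kernel), 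
  List.forall_mem_cons.2 ⟨mem_TT_of P10 (by decide +kernel), 
  List.forall_mem_cons.2 ⟨mem_TT_of P11 (by decide +kernel), 
  List.forall_mem_cons.2 ⟨mem_TT_of P12 (by decide +kernel), 
  List.forall_mem_cons.2 ⟨mem_TT_of P13 (by decide +kernel), 
  List.forall_mem_cons.2 ⟨mem_TT_of P14 (by decide +kernel), 
  List.forall_mem_cons.2 ⟨mem_TT_of P15 (by decide +kernel), 
  List.forall_mem_cons.2 ⟨mem_TT_of P16 (by decide +kernel), 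
  List.forall_mem_cons.2 ⟨mem_TT_of P17 (by decide +kernel), 
  List.forall_mem_cons.2 ⟨mem_TT_of P18 (by decide +kernel), 
  List.forall_mem_cons.2 ⟨mem_TT_of P19 (by decide +kernel), 
  List.forall_mem_cons.2 ⟨mem_TT_of P20 (by decide +kernel), 
  List.forall_mem_nil _⟩⟩⟩⟩⟩⟩⟩⟩⟩⟩⟩⟩⟩⟩⟩⟩⟩⟩⟩⟩⟩

theorem mem_PP_of {x : D1 → F} (h : ∀ i, sf F (uv F i) x = 0) : x ∈ PP F (W7 F) := by
  intro y hy
  induction hy using Submodule.span_induction with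
  | zero => rw [map_zero]; rfl
  | add a b _ _ ha hb => rw [map_add, LinearMap.add_apply, ha, hb, add_zero]
  | smul c a _ ha => rw [map_smul, LinearMap.smul_apply, ha, smul_zero]
  | mem a ha =>
    obtain ⟨i, rfl⟩ := ha
    exact h i

theorem PL_orth (i : Fin 8) {n : ℕ} (hn : n ∈ PL) : sf F (uv F i) (lv F (pl n)) = 0 := by
  rw [uv, ← om_spec]
  have h := Nat.eq_of_beq_eq_true (List.all_eq_true.1 (List.all_eq_true.1 perpP _ (UL_mem i)) _ hn)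
  rw [h, Nat.cast_zero]

theorem PL_PP {n : ℕ} (hn : n ∈ PL) : lv F (pl n) ∈ PP F (W7 F) := mem_PP_of fun i => PL_orth i hn

theorem BL_eq : BL = UL.take 7 ++ PL := rfl

theorem SP_BL_le : SP F BL ≤ WW F (W7 F) := by
  refine SP_le fun n hn => ?_
  rw [BL_eq, List.mem_append] at hn
  rcases hn with hn | hn
  · have h1 : n ∈ UL := List.mem_of_mem_take hn
    obtain ⟨i, hi, h2⟩ := List.getElem_of_mem h1
    have hi8 : i < 8 := hi
    have h3 : uv F ⟨i, hi8⟩ = lv F (pl n) := by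
      rw [uv]
      show lv F (pl (UL.getD i 0)) = _
      rw [List.getD_eq_getElem _ _ hi, h2]
    rw [← h3]
    exact Submodule.mem_sup_left (uv_mem _)
  · exact Submodule.mem_sup_right ⟨PL_TT n hn, PL_PP hn⟩

theorem u7BL : chkL [4, 4, 4, 4, 4, 4, 4] BL u7 = true := by decide +kernel

theorem W7_le : W7 F ≤ SP F BL := by
  refine Submodule.span_le.2 ?_
  rintro _ ⟨i, rfl⟩
  show lv F (pl (UL.getD i 0)) ∈ SP F BL
  by_cases hi : (i : ℕ) < 7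
  · refine SP_of_mem ?_
    rw [BL_eq, List.mem_append]
    left
    have h1 : (UL.take 7).getD i 0 = UL.getD i 0 := by
      rw [List.getD_eq_getElem?_getD, List.getD_eq_getElem?_getD, List.getElem?_take_of_lt hi]
    rw [← h1, List.getD_eq_getElem _ _ (show (i : ℕ) < (UL.take 7).length from hi)]
    exact List.getElem_mem _
  · have h1 : (i : ℕ) = 7 := by omega
    rw [h1]
    exact mem_SP u7BL

theorem MM_chk : ((List.range 7).all fun m => (List.range 7).all fun j => Nat.beq (om (UL.getD m 0) (T7.getD j 0))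
    ((MM.getD m []).getD j 0)) = true := by decide +kernel

theorem om_T7 {m j : ℕ} (hm : m < 7) (hj : j < 7) :
    sf F (uv F ⟨m, by omega⟩) (lv F (pl (T7.getD j 0))) = ((((MM.getD m []).getD j 0 : ℕ)) : F) := by
  have h := Nat.eq_of_beq_eq_true (List.all_eq_true.1 (List.all_eq_true.1 MM_chk m (List.mem_range.2 hm)) j (List.mem_range.2 hj))
  rw [uv, ← om_spec, ← h]

/-- the Gram matrix is invertible -/
theorem gram {c : Fin 7 → F} (h : ∀ m : Fin 7, ∑ j : Fin 7, c j * ((((MM.getD m []).getD j 0 : ℕ)) : F) = 0) : c = 0 := by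
  have h5 : (5 : F) = 0 := five_zero
  have h_0 := h 0
  rw [Fin.sum_univ_seven] at h_0
  change c 0 * ((0 : ℕ) : F) + c 1 * ((0 : ℕ) : F) + c 2 * ((0 : ℕ) : F) + c 3 * ((0 : ℕ) : F) + c 4 * ((1 : ℕ) : F) + c 5 * ((1 : ℕ) : F) + c 6 * ((1 : ℕ) : F) = 0 at h_0
  have h_1 := h 1
  rw [Fin.sum_univ_seven] at h_1
  change c 0 * ((0 : ℕ) : F) + c 1 * ((1 : ℕ) : F) + c 2 * ((1 : ℕ) : F) + c 3 * ((1 : ℕ) : F) + c 4 * ((1 : ℕ) : F) + c 5 * ((1 : ℕ) : F) + c 6 * ((1 : ℕ) : F) = 0 at h_1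
  have h_2 := h 2
  rw [Fin.sum_univ_seven] at h_2
  change c 0 * ((1 : ℕ) : F) + c 1 * ((0 : ℕ) : F) + c 2 * ((0 : ℕ) : F) + c 3 * ((1 : ℕ) : F) + c 4 * ((0 : ℕ) : F) + c 5 * ((1 : ℕ) : F) + c 6 * ((1 : ℕ) : F) = 0 at h_2
  have h_3 := h 3
  rw [Fin.sum_univ_seven] at h_3
  change c 0 * ((1 : ℕ) : F) + c 1 * ((1 : ℕ) : F) + c 2 * ((1 : ℕ) : F) + c 3 * ((1 : ℕ) : F) + c 4 * ((0 : ℕ) : F) + c 5 * ((0 : ℕ) : F) + c 6 * ((0 : ℕ) : F) = 0 at h_3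
  have h_4 := h 4
  rw [Fin.sum_univ_seven] at h_4
  change c 0 * ((1 : ℕ) : F) + c 1 * ((0 : ℕ) : F) + c 2 * ((1 : ℕ) : F) + c 3 * ((0 : ℕ) : F) + c 4 * ((0 : ℕ) : F) + c 5 * ((0 : ℕ) : F) + c 6 * ((1 : ℕ) : F) = 0 at h_4
  have h_5 := h 5
  rw [Fin.sum_univ_seven] at h_5
  change c 0 * ((1 : ℕ) : F) + c 1 * ((1 : ℕ) : F) + c 2 * ((0 : ℕ) : F) + c 3 * ((1 : ℕ) : F) + c 4 * ((1 : ℕ) : F) + c 5 * ((1 : ℕ) : F) + c 6 * ((1 : ℕ) : F) = 0 at h_5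
  have h_6 := h 6
  rw [Fin.sum_univ_seven] at h_6
  change c 0 * ((0 : ℕ) : F) + c 1 * ((1 : ℕ) : F) + c 2 * ((1 : ℕ) : F) + c 3 * ((0 : ℕ) : F) + c 4 * ((1 : ℕ) : F) + c 5 * ((1 : ℕ) : F) + c 6 * ((0 : ℕ) : F) = 0 at h_6
  simp only [Nat.cast_zero, Nat.cast_one, mul_zero, mul_one, add_zero, zero_add] at h_0 h_1 h_2 h_3 h_4 h_5 h_6
  funext j
  show c j = 0
  fin_cases j
  · show c 0 = 0
    linear_combination 1 * h_0 + 4 * h_1 + 1 * h_3 - (1 * c 1 + 1 * c 2 + 1 * c 3 + 1 * c 4 + 1 * c 5 + 1 * c 6) * h5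
  · show c 1 = 0
    linear_combination 1 * h_0 + 1 * h_1 + 2 * h_3 + 1 * h_4 + 2 * h_5 + 1 * h_6 - (1 * c 0 + 1 * c 1 + 1 * c 2 + 1 * c 3 + 1 * c 4 + 1 * c 5 + 1 * c 6) * h5
  · show c 2 = 0
    linear_combination 1 * h_0 + 1 * h_3 + 4 * h_5 - (1 * c 0 + 1 * c 1 + 1 * c 3 + 1 * c 4 + 1 * c 5 + 1 * c 6) * h5
  · show c 3 = 0
    linear_combination 2 * h_0 + 2 * h_3 + 4 * h_4 + 4 * h_5 + 4 * h_6 - (2 * c 0 + 2 * c 1 + 2 * c 2 + 1 * c 3 + 2 * c 4 + 2 * c 5 + 2 * c 6) * h5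
  · show c 4 = 0
    linear_combination 4 * h_0 + 4 * h_1 + 4 * h_2 + 3 * h_3 + 4 * h_4 + 4 * h_5 + 4 * h_6 - (3 * c 0 + 3 * c 1 + 3 * c 2 + 3 * c 3 + 3 * c 4 + 4 * c 5 + 4 * c 6) * h5
  · show c 5 = 0
    linear_combination 4 * h_0 + 1 * h_2 + 4 * h_3 + 1 * h_6 - (1 * c 0 + 1 * c 1 + 1 * c 2 + 1 * c 3 + 1 * c 4 + 1 * c 5 + 1 * c 6) * h5
  · show c 6 = 0
    linear_combination 3 * h_0 + 1 * h_1 + 3 * h_3 + 1 * h_4 + 1 * h_5 - (1 * c 0 + 1 * c 1 + 1 * c 2 + 1 * c 3 + 1 * c 4 + 1 * c 5 + 1 * c 6) * h5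

theorem WW_le : WW F (W7 F) ≤ SP F BL := by
  refine sup_le W7_le ?_
  rintro x ⟨hx, hp⟩
  have h1 := TT_le _ T_mem hx
  have h2 : SP F (PL ++ T7) ≤ SP F PL ⊔ Submodule.span F (Set.range fun j : Fin 7 => lv F (pl (T7.getD j 0))) := by
    refine SP_le fun n hn => ?_
    rw [List.mem_append] at hn
    rcases hn with hn | hn
    · exact Submodule.mem_sup_left (SP_of_mem hn)
    · obtain ⟨i, hi, h2⟩ := List.getElem_of_mem hn
      refine Submodule.mem_sup_right (Submodule.subset_span ⟨⟨i, hi⟩, ?_⟩)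
      show lv F (pl (T7.getD i 0)) = _
      rw [List.getD_eq_getElem _ _ hi, h2]
  obtain ⟨p, hpP, t, ht, rfl⟩ := Submodule.mem_sup.1 (h2 h1)
  obtain ⟨c, rfl⟩ := (Submodule.mem_span_range_iff_exists_fun F).1 ht
  have h3 : c = 0 := by
    apply gram
    intro m
    have h4 := hp _ (uv_mem (⟨m, by omega⟩ : Fin 8))
    rw [map_add, map_sum] at h4
    have h5 : sf F (uv F ⟨m, by omega⟩) p = 0 := by
      have h6 : SP F PL ≤ LinearMap.ker (sf F (uv F ⟨m, by omega⟩)) := SP_le fun n hn => PL_orth _ hn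
      exact h6 hpP
    rw [h5, zero_add] at h4
    rw [← h4]
    refine Finset.sum_congr rfl fun j _ => ?_
    rw [map_smul, smul_eq_mul, om_T7 m.2 j.2]
  rw [h3]
  simp only [Pi.zero_apply, zero_smul, Finset.sum_const_zero, add_zero]
  exact SP_mono (fun n hn => by rw [BL_eq]; exact List.mem_append_right _ hn) hpP

variable (F)

/-- the element `g_0` -/
noncomputable def g0 : Gh F := gw F wG * tor F eG

variable {F}

theorem g0_b {b i : ℕ} (h : Nat.beq (cw cG (upg ft b dG)) i = true) {cs : List ℕ} (h2 : chkL cs BL i = true) :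
    V F (g0 F) (lv F (pl b)) ∈ SP F BL := by
  rw [g0, V_wt okwG oktG h]
  exact mem_SP h2

theorem g0_BL : ∀ n ∈ BL, V F (g0 F) (lv F (pl n)) ∈ SP F BL :=
  List.forall_mem_cons.2 ⟨g0_b I0 J0, 
  List.forall_mem_cons.2 ⟨g0_b I1 J1, 
  List.forall_mem_cons.2 ⟨g0_b I2 J2, 
  List.forall_mem_cons.2 ⟨g0_b I3 J3, 
  List.forall_mem_cons.2 ⟨g0_b I4 J4, 
  List.forall_mem_cons.2 ⟨g0_b I5 J5, 
  List.forall_mem_cons.2 ⟨g0_b I6 J6, 
  List.forall_mem_cons.2 ⟨g0_b I7 J7, 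
  List.forall_mem_cons.2 ⟨g0_b I8 J8, 
  List.forall_mem_cons.2 ⟨g0_b I9 J9, 
  List.forall_mem_cons.2 ⟨g0_b I10 J10, 
  List.forall_mem_cons.2 ⟨g0_b I11 J11, 
  List.forall_mem_cons.2 ⟨g0_b I12 J12, 
  List.forall_mem_cons.2 ⟨g0_b I13 J13, 
  List.forall_mem_cons.2 ⟨g0_b I14 J14, 
  List.forall_mem_cons.2 ⟨g0_b I15 J15, 
  List.forall_mem_cons.2 ⟨g0_b I16 J16, 
  List.forall_mem_cons.2 ⟨g0_b I17 J17, 
  List.forall_mem_cons.2 ⟨g0_b I18 J18, 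
  List.forall_mem_cons.2 ⟨g0_b I19 J19, 
  List.forall_mem_cons.2 ⟨g0_b I20 J20, 
  List.forall_mem_cons.2 ⟨g0_b I21 J21, 
  List.forall_mem_cons.2 ⟨g0_b I22 J22, 
  List.forall_mem_cons.2 ⟨g0_b I23 J23, 
  List.forall_mem_cons.2 ⟨g0_b I24 J24, 
  List.forall_mem_cons.2 ⟨g0_b I25 J25, 
  List.forall_mem_cons.2 ⟨g0_b I26 J26, 
  List.forall_mem_cons.2 ⟨g0_b I27 J27, 
  List.forall_mem_nil _⟩⟩⟩⟩⟩⟩⟩⟩⟩⟩⟩⟩⟩⟩⟩⟩⟩⟩⟩⟩⟩⟩⟩⟩⟩⟩⟩⟩

/-- **`g_0` stabilises the canonical subspace** -/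
theorem g0_WW : ∀ x ∈ WW F (W7 F), V F (g0 F) x ∈ WW F (W7 F) := by
  intro x hx
  have h1 : SP F BL ≤ (SP F BL).comap (V F (g0 F)) := SP_le fun n hn => g0_BL n hn
  exact SP_BL_le (h1 (WW_le hx))

/-- **`g_0` does not stabilise `W7`** -/
theorem g0_W7 : ∃ x ∈ W7 F, V F (g0 F) x ∉ W7 F := by
  refine ⟨uv F 0, uv_mem 0, ?_⟩
  have h1 : V F (g0 F) (uv F 0) = lv F (pl i0) := V_wt okwG oktG I0
  rw [h1]
  intro h2
  have h3 : W7 F ≤ LinearMap.ker (sf F (lv F (pl xx))) := by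
    refine Submodule.span_le.2 ?_
    rintro _ ⟨i, rfl⟩
    show sf F (lv F (pl xx)) (uv F i) = 0
    rw [uv, ← om_spec]
    have h := Nat.eq_of_beq_eq_true (List.all_eq_true.1 xxU _ (UL_mem i))
    rw [h, Nat.cast_zero]
  have h4 : sf F (lv F (pl xx)) (lv F (pl i0)) = 0 := h3 h2
  rw [← om_spec, Nat.eq_of_beq_eq_true xxI, Nat.cast_one] at h4
  exact one_ne_zero h4

theorem uv_ne : sf F (uv F 0) (DD F (uv F 1) (uv F 2) *ᵥ uv F 3) ≠ 0 := by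
  have h1 : DD F (uv F 1) (uv F 2) *ᵥ uv F 3 = lv F (pl t123) := DD_eval Q12 T123
  have h2 : Nat.beq (om u0 t123) 1 = true := by decide +kernel
  rw [h1]
  show sf F (lv F (pl u0)) (lv F (pl t123)) ≠ 0
  rw [← om_spec, Nat.eq_of_beq_eq_true h2, Nat.cast_one]
  exact one_ne_zero

end

end Cfsg.Agent.R2.PX.C
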