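import Cfsg.Agent.R2.PX.C.Sp

/-!
# Pattern X, Part C: the standard configuration, the vectors (helper3)
-/

set_option autoImplicit false
set_option maxRecDepth 100000

namespace Cfsg.Agent.R2.PX.C

open Cfsg Cfsg.Lie Matrix
open Cfsg.Agent.R2.T1 Cfsg.Agent.R2.PX
open Cfsg.Agent.H943.E7V.Block (D1 rho)

universe u
variable {F : Type u} [Field F]

/-- the vector `u_0` -/
def u0 : ℕ := 0x300

/-- the vector `u_1` -/
def u1 : ℕ := 0x30000000000000000000000000000000000000000

/-- the vector `u_2` -/
def u2 : ℕ := 0x300000000000000000000000000000000000000000000000000000000000000000000000000000000000000000000000000000000000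

/-- the vector `u_3` -/
def u3 : ℕ := 0x40003001000300100030000003300000000000040000000000020000202000000000000000000030300000000000000000000000000000000200300

/-- the vector `u_4` -/
def u4 : ℕ := 0x40001234000304100040000100100100000340010000003010030000104003000000000000000030000200000000000000000000000003000200300

/-- the vector `u_5` -/
def u5 : ℕ := 0x40413410210303423140222201300240300134000010041020000001102001000200002000000030100400040000200000100000300001000300300

/-- the vector `u_6` -/
def u6 : ℕ := 0x40143410340303432440333201300210200131000040011020000004102001000300003000000030100400010000300000400000200001000300300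

/-- the vector `u_7` -/
def u7 : ℕ := 0x40000000000000000000000000000000000000000000000000000000000000000000000000000000000000000000000000000000000000000000000

/-- the eight vectors -/
def UL : List ℕ := [u0, u1, u2, u3, u4, u5, u6, u7]

variable (F)

/-- the standard configuration -/
def uv (i : Fin 8) : D1 → F := lv F (pl (UL.getD i 0))

variable {F}

theorem lv_pl_zero : lv F (pl 0) = 0 := by
  funext a
  rw [lv_pl]
  show (((0 >>> (4 * (nn a - 120))) &&& 15 : ℕ) : F) = 0
  rw [Nat.zero_shiftRight, Nat.zero_and, Nat.cast_zero]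

theorem pure0 : chkQ u0 u0 0 = true := by decide +kernel

theorem pure1 : chkQ u1 u1 0 = true := by decide +kernel

theorem pure2 : chkQ u2 u2 0 = true := by decide +kernel

theorem pure3 : chkQ u3 u3 0 = true := by decide +kernel

theorem pure4 : chkQ u4 u4 0 = true := by decide +kernel

theorem pure5 : chkQ u5 u5 0 = true := by decide +kernel

theorem pure6 : chkQ u6 u6 0 = true := by decide +kernel

theorem pure7 : chkQ u7 u7 0 = true := by decide +kernel

theorem isoU : (UL.all fun x => UL.all fun y => Nat.beq (om x y) 0) = true := by decide +kernel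

theorem sumU : chkL [1, 1, 1, 1, 1, 1, 1, 1] UL 0 = true := by decide +kernel

theorem UL_mem (i : Fin 8) : UL.getD i 0 ∈ UL := by
  rw [List.getD_eq_getElem _ _ (show (i : ℕ) < UL.length from i.2)]
  exact List.getElem_mem _

theorem uv_iso [CharP F 5] (i j : Fin 8) : sf F (uv F i) (uv F j) = 0 := by
  rw [uv, uv, ← om_spec]
  have h := Nat.eq_of_beq_eq_true (List.all_eq_true.1 (List.all_eq_true.1 isoU _ (UL_mem i)) _ (UL_mem j))
  rw [h, Nat.cast_zero]

theorem qv_zero : qv F 0 = 0 := by
  funext j
  rcases j with i | r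
  · show (((0 >>> (4 * (126 + (i : ℕ)))) &&& 15 : ℕ) : F) = 0
    rw [Nat.zero_shiftRight, Nat.zero_and, Nat.cast_zero]
  · show (((0 >>> (4 * (r : ℕ))) &&& 15 : ℕ) : F) = 0
    rw [Nat.zero_shiftRight, Nat.zero_and, Nat.cast_zero]

theorem pure_of [CharP F 5] {A : ℕ} (h : chkQ A A 0 = true) : Pure F (lv F (pl A)) := by
  unfold Pure
  rw [← del_dd, dd_eval h, qv_zero]
  exact (del F).map_zero

theorem uv_pure [CharP F 5] : ∀ i : Fin 8, Pure F (uv F i) := by
  intro i
  fin_cases i
  · exact pure_of pure0
  · exact pure_of pure1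
  · exact pure_of pure2
  · exact pure_of pure3
  · exact pure_of pure4
  · exact pure_of pure5
  · exact pure_of pure6
  · exact pure_of pure7

theorem uv_sum [CharP F 5] : ∑ i, uv F i = 0 := by
  have h := lvd_eq (F := F) sumU
  rw [lv_pl_zero] at h
  rw [Fin.sum_univ_eight]
  have h2 : lvd F [1, 1, 1, 1, 1, 1, 1, 1] UL = ((1 : ℕ) : F) • lv F (pl u0) + (((1 : ℕ) : F) • lv F (pl u1) +
      (((1 : ℕ) : F) • lv F (pl u2) + (((1 : ℕ) : F) • lv F (pl u3) + (((1 : ℕ) : F) • lv F (pl u4) +
      (((1 : ℕ) : F) • lv F (pl u5) + (((1 : ℕ) : F) • lv F (pl u6) + (((1 : ℕ) : F) • lv F (pl u7) + 0))))))) := rfl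
  rw [h2, Nat.cast_one] at h
  simp only [one_smul, add_zero] at h
  rw [h]
  show lv F (pl u0) + lv F (pl u1) + lv F (pl u2) + lv F (pl u3) + lv F (pl u4) + lv F (pl u5) + lv F (pl u6) +
    lv F (pl u7) = _
  simp only [add_assoc]

end Cfsg.Agent.R2.PX.C
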