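import Cfsg.Agent.R2.PX.C.StdA

/-!
# Pattern X, Part C: the standard configuration, the triple products (helper3)
-/

set_option autoImplicit false
set_option maxRecDepth 100000

namespace Cfsg.Agent.R2.PX.C

open Cfsg Cfsg.Lie Matrix
open Cfsg.Agent.R2.T1 Cfsg.Agent.R2.PX
open Cfsg.Agent.H943.E7V.Block (D1 rho)

universe u
variable {F : Type u} [Field F]

/-- `D(u_0, u_1)` -/
def q01 : ℕ := 0x3

theorem Q01 : chkQ u0 u1 q01 = true := by decide +kernel

/-- `D(u_0, u_1) u_2` -/
def t012 : ℕ := 0x1

theorem T012 : chkD q01 u2 t012 = true := by decide +kernel

/-- `D(u_0, u_1) u_3` -/
def t013 : ℕ := 0x200000000040000000000000000200000000000001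

theorem T013 : chkD q01 u3 t013 = true := by decide +kernel

/-- `D(u_0, u_1) u_4` -/
def t014 : ℕ := 0x200000000030000100000400000300000000000001

theorem T014 : chkD q01 u4 t014 = true := by decide +kernel

/-- `D(u_0, u_1) u_5` -/
def t015 : ℕ := 0x200200300040000200000300000000001000200001

theorem T015 : chkD q01 u5 t015 = true := by decide +kernel

/-- `D(u_0, u_1) u_6` -/
def t016 : ℕ := 0x200300200040000200000300000000004000300001

theorem T016 : chkD q01 u6 t016 = true := by decide +kernel

/-- `D(u_0, u_1) u_7` -/
def t017 : ℕ := 0x200000000000000000000000000000000000000000

theorem T017 : chkD q01 u7 t017 = true := by decide +kernel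

/-- `D(u_1, u_4)` -/
def q14 : ℕ := 0x400000040003000020000400000000300000000000000000000000000000001400110000102000103000000000003

theorem Q14 : chkQ u1 u4 q14 = true := by decide +kernel

/-- `D(u_1, u_4) u_5` -/
def t145 : ℕ := 0x2000000000004223000420304030020000303004000001000000000000000000000000000000200100300020000300000400000200002000100001

theorem T145 : chkD q14 u5 t145 = true := by decide +kernel

/-- `D(u_1, u_4) u_6` -/
def t146 : ℕ := 0x2000000000001323000420201030020000203004000004000000000000000000000000000000200400200020000300000400000200003000400001

theorem T146 : chkD q14 u6 t146 = true := by decide +kernel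

/-- `D(u_1, u_4) u_7` -/
def t147 : ℕ := 0x2000000000000042000120000000000000000000000000000000000000000000000000000000200000000000000000000000000000000000000000

theorem T147 : chkD q14 u7 t147 = true := by decide +kernel

/-- `D(u_1, u_5)` -/
def q15 : ℕ := 0x401040020001000040000000030010300000000000000000000000000000133303200410200010301003000200003

theorem Q15 : chkQ u1 u5 q15 = true := by decide +kernel

/-- `D(u_1, u_5) u_6` -/
def t156 : ℕ := 0x2000000000000012000010000030010000004004000000000000000000000000000000000000200000000000000400000200000300000000000001

theorem T156 : chkD q15 u6 t156 = true := by decide +kernel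

/-- `D(u_1, u_5) u_7` -/
def t157 : ℕ := 0x2000000000002430000340003000000000300000000000000000000000000000000000000000200000000000000000000000000000000000000000

theorem T157 : chkD q15 u7 t157 = true := by decide +kernel

/-- `D(u_2, u_5)` -/
def q25 : ℕ := 0x400000200010030240030330423042014000000000000000000000000000000301004000400002000010003001033000000000000000000000000000000000

theorem Q25 : chkQ u2 u5 q25 = true := by decide +kernel

/-- `D(u_2, u_5) u_6` -/
def t256 : ℕ := 0x2310000102000000000000000040020100003001000000000000000000000000100003000000000000000000000000000000000000000000000001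

theorem T256 : chkD q25 u6 t256 = true := by decide +kernel

/-- `D(u_2, u_5) u_7` -/
def t257 : ℕ := 0x2411343432000000000000000000000000000000000000000000000000000000000000000000000000000000000000000000000000000000000000

theorem T257 : chkD q25 u7 t257 = true := by decide +kernel

/-- `D(u_2, u_6)` -/
def q26 : ℕ := 0x400000200010020310020220423042041000000000000000000000000000000301004000100003000040002001033000000000000000000000000000000000

theorem Q26 : chkQ u2 u6 q26 = true := by decide +kernel

/-- `D(u_2, u_6) u_7` -/
def t267 : ℕ := 0x2414212432000000000000000000000000000000000000000000000000000000000000000000000000000000000000000000000000000000000000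

theorem T267 : chkD q26 u7 t267 = true := by decide +kernel


end Cfsg.Agent.R2.PX.C
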