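import Cfsg.Agent.R2.PX.C.Dn

/-!
# Pattern X, Part C: words on packed vectors (helper3)

* `upg f R l` : the packed vector `R` with the new value `f R u k` at `u` for the entries `(u, k)` of `l`;
* `V_cw` : the action of a compiled word on a packed vector; `V_tor` : the torus.
-/

set_option autoImplicit false
set_option maxRecDepth 100000

namespace Cfsg.Agent.R2.PX.C

open Cfsg Cfsg.Lie Matrix
open Cfsg.Agent.R2.T1 Cfsg.Agent.R2.PX
open Cfsg.Agent.ChevalleyStructure.Elts Cfsg.Agent.ChevalleyStructure.RootVec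
  Cfsg.Agent.ChevalleyStructure.RootVecTab
open Cfsg.Agent.H943.E7V.Block (D1 rho)

universe u

/-- packed vectors, with the raw functions -/
def pb (R s : ℕ) : ℕ := Nat.land (Nat.shiftRight R (Nat.mul 4 (Nat.sub s 120))) 15

theorem pb_eq (R s : ℕ) : pb R s = pa R s := rfl

/-- packed update -/
def upg (f : ℕ → ℕ → ℕ → ℕ) (R : ℕ) : List (ℕ × ℕ) → ℕ
  | [] => R
  | (u, k) :: l => Nat.xor (upg f R l) (Nat.shiftLeft (Nat.xor (pb R u) (f R u k)) (Nat.mul 4 (Nat.sub u 120)))

/-- the new value for a root element -/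
def fr (t R u k : ℕ) : ℕ := Nat.mod (Nat.add (pb R u) (Nat.mul t (Nat.mul (sn k) (pb R (Nat.div k 2))))) 5

/-- the new value for an element of the torus -/
def ft (R u k : ℕ) : ℕ := Nat.mod (Nat.mul k (pb R u)) 5

theorem pa_lt (R s : ℕ) : pa R s < 16 := by
  show (R >>> (4 * (s - 120))) &&& 15 < 16
  exact Nat.lt_succ_of_le Nat.and_le_right

theorem pa_testBit (R s i : ℕ) : (pa R s).testBit i = (decide (i < 4) && R.testBit (4 * (s - 120) + i)) := by
  show ((R >>> (4 * (s - 120))) &&& 15).testBit i = _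
  rw [Nat.testBit_and, Nat.testBit_shiftRight, show (15 : ℕ) = 2 ^ 4 - 1 from rfl, Nat.testBit_two_pow_sub_one,
    Bool.and_comm]

theorem pa_xor (A : ℕ) {z u s : ℕ} (hz : z < 16) (hu : 120 ≤ u) (hs : 120 ≤ s) :
    pa (Nat.xor A (Nat.shiftLeft z (Nat.mul 4 (Nat.sub u 120)))) s = if s = u then Nat.xor (pa A s) z else pa A s := by
  apply Nat.eq_of_testBit_eq
  intro i
  have hz4 : ∀ j, 4 ≤ j → z.testBit j = false := fun j hj => by
    apply Nat.testBit_lt_two_pow
    calc z < 2 ^ 4 := hz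
      _ ≤ 2 ^ j := Nat.pow_le_pow_right (by norm_num) hj
  rw [pa_testBit]
  change (decide (i < 4) && (A ^^^ (z <<< (4 * (u - 120)))).testBit (4 * (s - 120) + i)) = _
  rw [Nat.testBit_xor, Nat.testBit_shiftLeft]
  by_cases hi : i < 4
  · by_cases h : s = u
    · subst h
      rw [if_pos rfl]
      change _ = (pa A s ^^^ z).testBit i
      rw [Nat.testBit_xor, pa_testBit, decide_eq_true hi, decide_eq_true (show 4 * (s - 120) ≤ 4 * (s - 120) + i by omega),
        show 4 * (s - 120) + i - 4 * (s - 120) = i by omega]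
      simp
    · rw [if_neg h, pa_testBit, decide_eq_true hi]
      have h1 : (decide (4 * (u - 120) ≤ 4 * (s - 120) + i) && z.testBit (4 * (s - 120) + i - 4 * (u - 120))) = false := by
        by_cases h2 : 4 * (u - 120) ≤ 4 * (s - 120) + i
        · rw [hz4 _ (by omega), Bool.and_false]
        · rw [decide_eq_false h2, Bool.false_and]
      change (true && (A.testBit (4 * (s - 120) + i) ^^ (decide (4 * (u - 120) ≤ 4 * (s - 120) + i) &&
        z.testBit (4 * (s - 120) + i - 4 * (u - 120))))) = _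
      rw [h1]
      simp
  · rw [decide_eq_false hi, Bool.false_and]
    by_cases h : s = u
    · rw [if_pos h]
      change _ = (pa A s ^^^ z).testBit i
      rw [Nat.testBit_xor, pa_testBit, decide_eq_false hi, hz4 i (by omega)]
      simp
    · rw [if_neg h, pa_testBit, decide_eq_false hi, Bool.false_and]

theorem upg_spec (f : ℕ → ℕ → ℕ → ℕ) (hf : ∀ R u k, f R u k < 16) (R : ℕ) (h : ℕ → ℕ) :
    ∀ L : List ℕ, L.Nodup → (∀ u ∈ L, 120 ≤ u) → ∀ s, 120 ≤ s →
      pa (upg f R (fm h L)) s = if s ∈ L ∧ h s ≠ 0 then f R s (h s) else pa R s := by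
  intro L
  induction L with
  | nil =>
    intro _ _ s _
    rw [if_neg (by simp)]
    rfl
  | cons u L ih =>
    intro hn hL s hs
    rw [List.nodup_cons] at hn
    have ih' := ih hn.2 (fun x hx => hL x (List.mem_cons_of_mem _ hx)) s hs
    by_cases hu : h u = 0
    · have h1 : fm h (u :: L) = fm h L := by
        unfold fm
        rw [List.filterMap_cons_none (by rw [hu]; rfl)]
      rw [h1, ih']
      by_cases hsu : s = u
      · subst hsu
        rw [if_neg (fun hh => hn.1 hh.1), if_neg (fun hh => hh.2 hu)]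
      · have : (s ∈ u :: L ∧ h s ≠ 0) ↔ (s ∈ L ∧ h s ≠ 0) := by
          rw [List.mem_cons]
          constructor
          · rintro ⟨h1 | h1, h2⟩
            · exact absurd h1 hsu
            · exact ⟨h1, h2⟩
          · rintro ⟨h1, h2⟩
            exact ⟨Or.inr h1, h2⟩
        by_cases hh : s ∈ L ∧ h s ≠ 0
        · rw [if_pos hh, if_pos (this.2 hh)]
        · rw [if_neg hh, if_neg (fun h' => hh (this.1 h'))]
    · have h1 : fm h (u :: L) = (u, h u) :: fm h L := by
        unfold fm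
        rw [List.filterMap_cons_some (b := (u, h u)) (by rw [beq_zero_false hu]; rfl)]
      rw [h1]
      show pa (Nat.xor (upg f R (fm h L)) (Nat.shiftLeft (Nat.xor (pb R u) (f R u (h u))) (Nat.mul 4 (Nat.sub u 120)))) s = _
      have h16 : Nat.xor (pb R u) (f R u (h u)) < 16 := by
        show pa R u ^^^ f R u (h u) < 2 ^ 4
        exact Nat.xor_lt_two_pow (pa_lt R u) (hf R u (h u))
      rw [pa_xor _ h16 (hL u List.mem_cons_self) hs, ih']
      by_cases hsu : s = u
      · subst hsu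
        rw [if_pos rfl, if_neg (fun hh => hn.1 hh.1), if_pos ⟨List.mem_cons_self, hu⟩]
        show pa R s ^^^ (pa R s ^^^ f R s (h s)) = _
        rw [← Nat.xor_assoc, Nat.xor_self, Nat.zero_xor]
      · rw [if_neg hsu]
        have : (s ∈ u :: L ∧ h s ≠ 0) ↔ (s ∈ L ∧ h s ≠ 0) := by
          rw [List.mem_cons]
          constructor
          · rintro ⟨h1 | h1, h2⟩
            · exact absurd h1 hsu
            · exact ⟨h1, h2⟩
          · rintro ⟨h1, h2⟩
            exact ⟨Or.inr h1, h2⟩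
        by_cases hh : s ∈ L ∧ h s ≠ 0
        · rw [if_pos hh, if_pos (this.2 hh)]
        · rw [if_neg hh, if_neg (fun h' => hh (this.1 h'))]

theorem W56_nodup : W56.Nodup := by decide +kernel

theorem W56_ge : ∀ u ∈ W56, 120 ≤ u := by decide +kernel

theorem nn_ge (a : D1) : 120 ≤ nn a := W56_ge _ (nn_mem a)

theorem upg_W56 (f : ℕ → ℕ → ℕ → ℕ) (hf : ∀ R u k, f R u k < 16) (R : ℕ) (h : ℕ → ℕ) (a : D1) :
    pa (upg f R (fm h W56)) (nn a) = if h (nn a) ≠ 0 then f R (nn a) (h (nn a)) else pa R (nn a) := by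
  rw [upg_spec f hf R h W56 W56_nodup W56_ge (nn a) (nn_ge a)]
  by_cases hh : h (nn a) ≠ 0
  · rw [if_pos ⟨nn_mem a, hh⟩, if_pos hh]
  · rw [if_neg (fun h' => hh h'.2), if_neg hh]

variable {F : Type u} [Field F] [CharP F 5]

/-- the action of a root element on a packed vector -/
theorem V_up {r : ℕ} (hr : r < 126) (t R : ℕ) :
    V F (xs F r (t : F)) (lv F (pl R)) = lv F (pl (upg (fr t) R (fm (fun u => lk (PT.getD (125 - r) 0) (u - 120)) W56))) := by
  have hf : ∀ R u k, fr t R u k < 16 := fun R u k => lt_of_lt_of_le (Nat.mod_lt _ (by norm_num)) (by norm_num)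
  funext a
  rw [V_xs hr, Pi.add_apply, Pi.smul_apply, smul_eq_mul, lv_pl, lv_pl, upg_W56 _ hf]
  rcases NM_code hr (lv F (pl R)) a with ⟨h1, h2⟩ | ⟨h1, b, h2, h3⟩
  · rw [if_neg (fun h => h h1), h2, mul_zero, add_zero]
  · rw [if_pos h1, h3]
    show _ = (((pa R (nn a) + t * (sn (lk (PT.getD (125 - r) 0) (nn a - 120)) *
      pa R (lk (PT.getD (125 - r) 0) (nn a - 120) / 2))) % 5 : ℕ) : F)
    rw [castmod, h2]
    push_cast
    rw [sn_cast, lv_pl]

/-- the action of a compiled word on a packed vector -/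
def cw (w : List (ℕ × List (ℕ × ℕ))) (R : ℕ) : ℕ := w.foldr (fun x L => upg (fr x.1) L x.2) R

/-- the word and the compiled word agree -/
def okw (w : List (ℕ × ℕ)) (c : List (ℕ × List (ℕ × ℕ))) : Bool :=
  c == w.map (fun x => (x.2, fm (fun u => lk (PT.getD (125 - x.1) 0) (u - 120)) W56)) && w.all fun x => Nat.blt x.1 126

theorem V_cw {w : List (ℕ × ℕ)} {c : List (ℕ × List (ℕ × ℕ))} (h : okw w c = true) (R : ℕ) :
    V F (gw F w) (lv F (pl R)) = lv F (pl (cw c R)) := by
  unfold okw at h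
  rw [Bool.and_eq_true] at h
  obtain ⟨h1, h2⟩ := h
  have h3 := eq_of_beq h1
  subst h3
  clear h1
  induction w with
  | nil =>
    show V F (List.prod []) _ = _
    rw [List.prod_nil, V_one]
    rfl
  | cons x w ih =>
    rw [List.all_cons, Bool.and_eq_true, Nat.blt_eq] at h2
    show V F (List.prod (_ :: _)) _ = _
    rw [List.prod_cons, V_mul]
    have h4 : V F (w.map fun x => xs F x.1 ((x.2 : ℕ) : F)).prod (lv F (pl R)) = _ := ih h2.2
    rw [h4, V_up h2.1]
    rfl

/-! ### the torus -/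

/-- the exponent -/
def tx (e : List ℤ) (s : ℕ) : ℤ := ((List.range 7).map fun i => e.getD i 0 * chevE8.cartan i s).sum

/-- the value -/
def te (e : List ℤ) (s : ℕ) : ℕ := 2 ^ (tx e s % 4).toNat % 5

/-- the element of the torus -/
noncomputable def tor (F : Type u) [Field F] [CharP F 5] (e : List ℤ) : Gh F :=
  Phi F fun i => Units.mk0 (2 : F) two_ne ^ (e.getD i 0)

theorem te_cast (e : List ℤ) (s : ℕ) : ((te e s : ℕ) : F) = (2 : F) ^ (tx e s) := by
  unfold te
  rw [castmod]
  have h1 : tx e s = 4 * (tx e s / 4) + ((tx e s % 4).toNat : ℤ) := by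
    rw [Int.toNat_of_nonneg (Int.emod_nonneg _ (by norm_num))]
    exact (Int.mul_ediv_add_emod _ _).symm
  have h4 : (2 : F) ^ (4 : ℤ) = 1 := by
    have h5 : (5 : F) = 0 := five_zero
    rw [show (4 : ℤ) = ((4 : ℕ) : ℤ) from rfl, zpow_natCast]
    linear_combination 3 * h5
  conv_rhs => rw [h1]
  rw [zpow_add₀ two_ne, _root_.zpow_mul, h4, _root_.one_zpow, one_mul, zpow_natCast]
  push_cast
  rfl

omit [CharP F 5] in
theorem te_pos (e : List ℤ) (s : ℕ) : te e s ≠ 0 := by
  unfold te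
  have h : (tx e s % 4).toNat < 4 := by
    have h1 := Int.emod_nonneg (tx e s) (show (4 : ℤ) ≠ 0 by norm_num)
    have h2 := Int.emod_lt_of_pos (tx e s) (show (0 : ℤ) < 4 by norm_num)
    omega
  generalize (tx e s % 4).toNat = k at h
  interval_cases k <;> norm_num

theorem V_tor (e : List ℤ) (R : ℕ) :
    V F (tor F e) (lv F (pl R)) = lv F (pl (upg ft R (fm (te e) W56))) := by
  have hf : ∀ R u k, ft R u k < 16 := fun R u k => lt_of_lt_of_le (Nat.mod_lt _ (by norm_num)) (by norm_num)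
  have h2 : (2 : F) ≠ 0 := two_ne
  funext a
  rw [lv_pl, upg_W56 _ hf, if_pos (te_pos _ _), tor, V_apply, rho_Phi, Matrix.mulVec_diagonal, lv_pl]
  show _ = (((te e (nn a) * pa R (nn a)) % 5 : ℕ) : F)
  rw [castmod]
  push_cast
  rw [te_cast]
  congr 1
  unfold wt
  rw [Units.coe_prod]
  show ∏ i : Fin 7, (((Units.mk0 (2 : F) two_ne ^ (e.getD i 0)) ^ chevE8.cartan i (nn a) : Fˣ) : F) = _
  have h3 : tx e (nn a) = e.getD 0 0 * chevE8.cartan 0 (nn a) + (e.getD 1 0 * chevE8.cartan 1 (nn a) +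
      (e.getD 2 0 * chevE8.cartan 2 (nn a) + (e.getD 3 0 * chevE8.cartan 3 (nn a) + (e.getD 4 0 * chevE8.cartan 4 (nn a) +
      (e.getD 5 0 * chevE8.cartan 5 (nn a) + (e.getD 6 0 * chevE8.cartan 6 (nn a) + 0)))))) := rfl
  rw [h3, Fin.prod_univ_seven]
  simp only [← _root_.zpow_mul, Units.val_zpow_eq_zpow_val, Units.val_mk0, zpow_add₀ h2, zpow_zero, mul_one, mul_assoc]
  rfl

/-- a compiled torus element -/
def okt (e : List ℤ) (c : List (ℕ × ℕ)) : Bool := c == fm (te e) W56

theorem V_ct {e : List ℤ} {c : List (ℕ × ℕ)} (h : okt e c = true) (R : ℕ) :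
    V F (tor F e) (lv F (pl R)) = lv F (pl (upg ft R c)) := by
  have := eq_of_beq h
  subst this
  exact V_tor e R

/-- the action of a word times an element of the torus -/
theorem V_wt {w : List (ℕ × ℕ)} {c : List (ℕ × List (ℕ × ℕ))} {e : List ℤ} {d : List (ℕ × ℕ)} (h : okw w c = true)
    (he : okt e d = true) {R E : ℕ} (hE : Nat.beq (cw c (upg ft R d)) E = true) :
    V F (gw F w * tor F e) (lv F (pl R)) = lv F (pl E) := by
  have := Nat.eq_of_beq_eq_true hE
  rw [V_mul, V_ct he, V_cw h, this]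

end Cfsg.Agent.R2.PX.C
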